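import Cfsg.Agent.Transfer.Section
import Cfsg.Agent.Fgs1.PGroup

/-! Class sizes of prime-power elements of a normal subgroup: the elementary part. -/

set_option autoImplicit false

namespace CF.Cq

open Subgroup CF.Transfer

variable {G : Type*} [Group G] [Finite G] {p a : ℕ} [Fact p.Prime]

theorem pow_dvd_rel (P : Sylow p G) {H : Subgroup G} (h : p ^ a ∣ H.index) : p ^ a ∣ H.relIndex P := by
  have e := relIndex_mul_index (inf_le_right : H ⊓ (P : Subgroup G) ≤ P)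
  rw [inf_relIndex_right] at e
  exact (((Fact.out : p.Prime).coprime_iff_not_dvd.2 P.not_dvd_index).pow_left a).dvd_of_dvd_mul_right
    (e ▸ h.trans (index_dvd_of_le inf_le_left))

omit [Fact p.Prime] in
theorem le_of_pp {C Z : Subgroup G} (h : ∀ x ∈ C, IsPrimePow (orderOf x) → x ∈ Z) : C ≤ Z := by
  rw [← relIndex_eq_one]
  by_contra n
  obtain ⟨r, hr, d⟩ := Nat.exists_prime_and_dvd n
  have := Fact.mk hr
  obtain ⟨R⟩ : Nonempty (Sylow r C) := inferInstance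
  refine R.not_dvd_index (d.trans (index_dvd_of_le (fun x hx => ?_ : (R : Subgroup C) ≤ Z.subgroupOf C)))
  obtain ⟨k, hk⟩ := IsPGroup.iff_orderOf.1 R.isPGroup' ⟨x, hx⟩
  rw [orderOf_mk] at hk
  rcases k with _ | k
  · rw [orderOf_eq_one_iff.1 hk]; exact one_mem _
  · exact h x x.2 (by rw [orderOf_coe, hk]; exact (hr.isPrimePow.pow k.succ_ne_zero))

theorem exists_sec (P : Sylow p G) {N Z : Subgroup G} [N.Normal] [Z.Normal] (l : Z ≤ N)
    (n : ¬ (P : Subgroup G) ⊓ N ≤ Z) :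
    ∃ u ∈ (P : Subgroup G) ⊓ N, u ∉ Z ∧ ∀ v ∈ (P : Subgroup G), v * u * v⁻¹ * u⁻¹ ∈ Z := by
  let f := QuotientGroup.mk' Z
  have hp := P.isPGroup'.map f
  have : (N.map f).Normal := Normal.map inferInstance f (QuotientGroup.mk'_surjective Z)
  obtain ⟨z, ⟨⟨u, hu, e⟩, m, hm, e'⟩, z1, c⟩ := Fgs1.exists_fixed_of_isPGroup hp
    (Z := (P : Subgroup G).map f ⊓ N.map f)
    (fun g hg => mem_normalizer_iff.2 fun x => and_congr (mem_normalizer_iff.1 (le_normalizer hg) x)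
      (mem_normalizer_iff.1 (le_normalizer_of_normal (H := N.map f) (mem_top g)) x))
    (hp.to_inf_left) (fun b => n fun x hx => (QuotientGroup.eq_one_iff x).1
      ((eq_bot_iff_forall _).1 b _ ⟨mem_map_of_mem f hx.1, mem_map_of_mem f hx.2⟩))
  refine ⟨u, ⟨hu, ?_⟩, fun h => z1 (e ▸ (QuotientGroup.eq_one_iff u).2 h), fun v hv => ?_⟩
  · have := mul_mem hm (l (QuotientGroup.eq.1 (e'.trans e.symm)))
    rwa [mul_inv_cancel_left] at this
  · rw [← QuotientGroup.eq_one_iff]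
    have := c (f v) (mem_map_of_mem f hv)
    rw [← e] at this
    change f _ = 1
    rw [map_mul, map_mul, map_mul, this, map_inv, map_inv, mul_inv_cancel_right, mul_inv_cancel]

omit [Fact p.Prime] in
theorem rel_le {P Z : Subgroup G} {u : G} (hu : u ∈ P) (c : ∀ v ∈ P, v * u * v⁻¹ * u⁻¹ ∈ Z) :
    (centralizer {u}).relIndex P ≤ Nat.card ↥(P ⊓ Z) := by
  refine Nat.card_le_card_of_injective (fun q : P ⧸ (centralizer {u}).subgroupOf P =>
    (⟨q.out * u * (q.out : G)⁻¹ * u⁻¹, P.mul_mem (P.mul_mem (P.mul_mem q.out.2 hu) (P.inv_mem q.out.2)) (P.inv_mem hu),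
      c _ q.out.2⟩ : ↥(P ⊓ Z))) fun q r e => ?_
  rw [← q.out_eq', ← r.out_eq', QuotientGroup.eq, mem_subgroupOf, mem_centralizer_singleton_iff]
  have := mul_right_cancel (congrArg Subtype.val e)
  rw [coe_mul, coe_inv]
  calc (q.out : G)⁻¹ * r.out * u = (q.out : G)⁻¹ * (r.out * u * (r.out : G)⁻¹) * r.out := by group
    _ = _ := by rw [← this]; group

/-- the centre of `N` as a subgroup of `G` -/
abbrev Zn (N : Subgroup G) : Subgroup G := N ⊓ centralizer (N : Set G)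

omit [Finite G] in
theorem card_Zn (N : Subgroup G) : Nat.card (Zn N) = Nat.card (center N) := by
  rw [← card_map_of_injective (K := center N) N.subtype_injective]
  congr 2
  ext x
  refine ⟨fun h => ⟨⟨x, h.1⟩, mem_center_iff.2 fun y => Subtype.ext (h.2 y y.2), rfl⟩, ?_⟩
  rintro ⟨y, hy, rfl⟩
  exact ⟨y.2, fun z hz => congrArg Subtype.val (mem_center_iff.1 hy ⟨z, hz⟩)⟩

omit [Finite G] in
theorem nc {N : Subgroup G} {x : G} (m : x ∈ N) (n : x ∉ Zn N) : ∃ y ∈ N, x * y ≠ y * x := by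
  by_contra h
  push Not at h
  exact n ⟨m, fun y hy => (h y hy).symm⟩

theorem dvd_of_not_le (P : Sylow p G) {N : Subgroup G} [N.Normal]
    (h : ∀ x ∈ N, x ∉ Zn N → IsPrimePow (orderOf x) → p ^ a ∣ (centralizer ({x} : Set G)).index)
    (n : ¬ (P : Subgroup G) ⊓ N ≤ Zn N) : p ^ a ∣ Nat.card (Zn N) := by
  obtain ⟨u, hu, uz, c⟩ := exists_sec P (inf_le_left : Zn N ≤ N) n
  obtain ⟨k, hk⟩ := IsPGroup.iff_orderOf.1 P.isPGroup' ⟨u, hu.1⟩
  rw [orderOf_mk] at hk
  have hp : p.Prime := Fact.out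
  have k0 : k ≠ 0 := fun e => uz (by rw [orderOf_eq_one_iff.1 (by rw [hk, e, pow_zero] : orderOf u = 1)]; exact one_mem _)
  have l := (Nat.le_of_dvd (Nat.pos_of_ne_zero index_ne_zero_of_finite)
    (pow_dvd_rel P (h u hu.2 uz (hk ▸ hp.isPrimePow.pow k0)))).trans (rel_le hu.1 c)
  obtain ⟨j, hj⟩ := IsPGroup.iff_card.1 (P.isPGroup'.to_inf_left (K := Zn N))
  rw [hj] at l
  exact (pow_dvd_pow p ((Nat.pow_le_pow_iff_right hp.one_lt).1 l)).trans (hj ▸ card_dvd_of_le inf_le_right)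

end CF.Cq
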